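import Cfsg.Agent.H125.Hall.E6Base
import Cfsg.Agent.H190.E6.Cub

/-!
# S2223, task E-1: elements of `E₆` near the identity

`eq_one_of_rank` (EC1): an element `z` of `E₆` with `rank (z - 1) ≤ 4` is the identity, as the bilinear form
`tri (z v - v) · ·` vanishes on the fixed space of `z`, hence has rank at most 8, and every non-zero form of this
shape has rank at least 10.  `eq_one_of_fix` (EC2): an element fixing the coordinate vectors outside the three
weights `0, 4, 8` and stabilising their span is the identity.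
-/

set_option autoImplicit false

namespace Cfsg.Agent.H757.Hall

open Cfsg.Lie Cfsg.Agent.ChevalleyStructure.E6Min.Tables Cfsg.Agent.ChevalleyStructure.E6Min.Basic
open Cfsg.Agent.ChevalleyStructure.E6Min.Inv (Zgrp_le)
open Cfsg.Agent.ChevalleyStructure.E6Form.Cubic (tri tri_mulVec tri_e_e tri_smul_left nc th sg sg_ne_zero e e_self e_ne)
open scoped Matrix

variable {K : Type*} [Field K]

/-- EC1 -/
theorem eq_one_of_rank {z : GL I27 K} (hz : z ∈ Zgrp K) {m : ℕ} (_hm : (m : K) ≠ 0) (_hzm : z ^ m = 1)
    (hr : Module.finrank K (LinearMap.range (((z : Matrix I27 I27 K) - 1).mulVecLin)) ≤ 4) : z = 1 := by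
  have hzu : z ∈ E6univ K := Zgrp_le K hz
  set f : (I27 → K) →ₗ[K] (I27 → K) := ((z : Matrix I27 I27 K) - 1).mulVecLin with hf
  have hfx : ∀ v, f v = (z : Matrix I27 I27 K) *ᵥ v - v := by
    intro v
    rw [hf, Matrix.mulVecLin_apply, Matrix.sub_mulVec, Matrix.one_mulVec]
  have hmain : ∀ v, f v = 0 := by
    intro v
    by_contra hv
    have h10 := H190.E6.rank_ge hv
    set B := H190.E6.triL K (f v) with hB
    have hC : ∀ c ∈ LinearMap.ker f, ∀ c' ∈ LinearMap.ker f, B c c' = 0 := by
      intro c hc c' hc'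
      rw [LinearMap.mem_ker, hfx, sub_eq_zero] at hc hc'
      have h1 := tri_mulVec hzu v c c'
      rw [hc, hc'] at h1
      rw [hB, H190.E6.triL_apply, hfx, sub_eq_add_neg, H190.E6.tri_add_left, h1, ← neg_one_smul K v, tri_smul_left]
      ring
    obtain ⟨C', hC'⟩ := Submodule.exists_isCompl (LinearMap.ker f)
    have hd1 : Module.finrank K ↥(LinearMap.range f) + Module.finrank K ↥(LinearMap.ker f) = Module.finrank K (I27 → K) :=
      LinearMap.finrank_range_add_finrank_ker f
    have hd2 : Module.finrank K ↥(LinearMap.ker f) + Module.finrank K ↥C' = Module.finrank K (I27 → K) :=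
      Submodule.finrank_add_eq_of_isCompl hC'
    have hd3 : Module.finrank K ↥(LinearMap.ker f) + Module.finrank K ↥(LinearMap.ker f).dualAnnihilator =
      Module.finrank K (I27 → K) := Subspace.finrank_add_finrank_dualAnnihilator_eq (LinearMap.ker f)
    have h1 : LinearMap.range B ≤ (LinearMap.ker f).dualAnnihilator ⊔ C'.map B := by
      rw [LinearMap.range_eq_map, ← hC'.sup_eq_top, Submodule.map_sup]
      apply sup_le_sup_right
      rintro _ ⟨c, hc, rfl⟩
      rw [Submodule.mem_dualAnnihilator]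
      intro c' hc'
      exact hC c hc c' hc'
    have h2 : Module.finrank K ↥(LinearMap.range B) ≤ Module.finrank K ↥((LinearMap.ker f).dualAnnihilator ⊔ C'.map B) :=
      Submodule.finrank_mono h1
    have h3 : Module.finrank K ↥((LinearMap.ker f).dualAnnihilator ⊔ C'.map B) ≤
        Module.finrank K ↥(LinearMap.ker f).dualAnnihilator + Module.finrank K ↥(C'.map B) :=
      Submodule.finrank_add_le_finrank_add_finrank (LinearMap.ker f).dualAnnihilator (C'.map B)
    have h4 : Module.finrank K ↥(C'.map B) ≤ Module.finrank K ↥C' := Submodule.finrank_map_le B C'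
    have hr' : Module.finrank K ↥(LinearMap.range f) ≤ 4 := hr
    have h10' : 10 ≤ Module.finrank K ↥(LinearMap.range B) := h10
    generalize Module.finrank K ↥(LinearMap.range B) = n1 at h10' h2
    generalize Module.finrank K ↥((LinearMap.ker f).dualAnnihilator ⊔ C'.map B) = n2 at h2 h3
    generalize Module.finrank K ↥(C'.map B) = n3 at h3 h4
    generalize Module.finrank K ↥(LinearMap.ker f).dualAnnihilator = n4 at h3 hd3
    generalize Module.finrank K ↥C' = n5 at h4 hd2
    generalize Module.finrank K ↥(LinearMap.ker f) = n6 at hd1 hd2 hd3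
    generalize Module.finrank K ↥(LinearMap.range f) = n7 at hd1 hr'
    omega
  apply Units.ext
  rw [Units.val_one]
  have h1 : f = 0 := LinearMap.ext hmain
  have h2 : (z : Matrix I27 I27 K) - 1 = 0 := by
    apply Matrix.toLin'.injective
    rw [map_zero]
    exact h1
  exact sub_eq_zero.mp h2

/-- EC2 -/
theorem eq_one_of_fix {z : GL I27 K} (hz : z ∈ Zgrp K)
    (h1 : ∀ x y : I27, y ∉ ({dec 0, dec 4, dec 8} : Set I27) → (z : Matrix I27 I27 K) x y = if x = y then 1 else 0)
    (h2 : ∀ x y : I27, y ∈ ({dec 0, dec 4, dec 8} : Set I27) → x ∉ ({dec 0, dec 4, dec 8} : Set I27) →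
      (z : Matrix I27 I27 K) x y = 0) : z = 1 := by
  have hzu : z ∈ E6univ K := Zgrp_le K hz
  have hcol : ∀ y x, ((z : Matrix I27 I27 K) *ᵥ e K y) x = (z : Matrix I27 I27 K) x y := by
    intro y x
    rw [e, Matrix.mulVec_single_one]
    rfl
  have hfix : ∀ y, y ∉ ({dec 0, dec 4, dec 8} : Set I27) → (z : Matrix I27 I27 K) *ᵥ e K y = e K y := by
    intro y hy
    ext x
    rw [hcol, h1 x y hy]
    by_cases hxy : x = y
    · rw [if_pos hxy, hxy, e_self]
    · rw [if_neg hxy, e_ne hxy]
  -- rows with index in the exceptional set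
  have hrow : ∀ a b : I27, a ∉ ({dec 0, dec 4, dec 8} : Set I27) → b ∉ ({dec 0, dec 4, dec 8} : Set I27) →
      nc a b = true → ∀ y, (z : Matrix I27 I27 K) (th a b) y = if th a b = y then 1 else 0 := by
    intro a b ha hb hab y
    have h3 := tri_mulVec hzu (e K a) (e K b) (e K y)
    rw [hfix a ha, hfix b hb, tri_e_e, tri_e_e, if_pos hab, if_pos hab] at h3
    have h4 := mul_left_cancel₀ (sg_ne_zero hab) h3
    rw [hcol] at h4
    rw [h4]
    by_cases hxy : th a b = y
    · rw [if_pos hxy, hxy, e_self]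
    · rw [if_neg hxy, e_ne hxy]
  have hS : ∀ i : Fin 3, ((1, i, 0) : I27) ∉ ({dec 0, dec 4, dec 8} : Set I27) ∧
      ((2, 0, i) : I27) ∉ ({dec 0, dec 4, dec 8} : Set I27) ∧ nc (1, i, 0) (2, 0, i) = true ∧
      th (1, i, 0) (2, 0, i) = (0, i, i) := by
    intro i
    simp only [Set.mem_insert_iff, Set.mem_singleton_iff]
    revert i
    decide
  apply Units.ext
  rw [Units.val_one]
  ext x y
  rw [Matrix.one_apply]
  by_cases hx : x ∈ ({dec 0, dec 4, dec 8} : Set I27)
  · have h5 : ∃ i : Fin 3, x = (0, i, i) := by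
      simp only [Set.mem_insert_iff, Set.mem_singleton_iff] at hx
      rcases hx with h | h | h
      · exact ⟨0, h.trans (by decide)⟩
      · exact ⟨1, h.trans (by decide)⟩
      · exact ⟨2, h.trans (by decide)⟩
    obtain ⟨i, rfl⟩ := h5
    obtain ⟨ha, hb, hab, hth⟩ := hS i
    have h6 := hrow _ _ ha hb hab y
    rw [hth] at h6
    exact h6
  · by_cases hy : y ∈ ({dec 0, dec 4, dec 8} : Set I27)
    · rw [h2 x y hy hx, if_neg]
      rintro rfl
      exact hx hy
    · exact h1 x y hy

end Cfsg.Agent.H757.Hall
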